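import Cfsg.Agent.H717.M23.Sums
import Cfsg.Agent.H616.M23.Val
import Cfsg.Agent.H845.HNTr

/-!
# The relations of `Sums` for the Harada-Norton group (helper717)

`sums` : `Table Spor.HN ty` and `Bt b` give the relations of `H616.M23.Sums`.
-/

set_option autoImplicit false
set_option linter.unusedSectionVars false

namespace Cfsg.Agent.H717.M23.SumsHN

open Cfsg.Agent.H717.M23.Sums Cfsg.Agent.H651.HNF Cfsg.Agent.H616.M23
open Equiv.Perm (mem_alternatingGroup sign)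

theorem sm {H : Type} [Group H] [Finite H] {b : H → ℤ} (hb : Bt b) : Sm b := ⟨hb.conj, hb.sum⟩

theorem mem_rr (k : Fin 15) : rr k ∈ alternatingGroup (Fin 12) := mem_alternatingGroup.2 (rr_sign k)

section

variable {H : Type} [Group H] [Finite H] {Φ : alternatingGroup (Fin 12) →* H} {ty : H → Ty}

theorem isConj_rr {x : P12} (hx : sign x = 1) (k : Fin 15) (hT : x.cycleType = (rr k).cycleType) :
    IsConj (Φ ⟨x, mem_alternatingGroup.2 hx⟩) (Φ ⟨rr k, mem_rr k⟩) := by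
  obtain ⟨g, hg⟩ := isConj_iff.1 (Equiv.Perm.isConj_iff_cycleType_eq.2 hT)
  have hg' : g * x = rr k * g := by rw [← hg]; group
  have key : ∀ c : P12, sign c = 1 → c * x = rr k * c →
      IsConj (Φ ⟨x, mem_alternatingGroup.2 hx⟩) (Φ ⟨rr k, mem_rr k⟩) := by
    intro c hc h
    refine isConj_iff.2 ⟨Φ ⟨c, mem_alternatingGroup.2 hc⟩, ?_⟩
    rw [mul_inv_eq_iff_eq_mul, ← map_mul, ← map_mul]
    exact congrArg Φ (Subtype.ext h)
  rcases Int.units_eq_one_or (sign g) with h1 | h1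
  · exact key g h1 hg'
  · refine key (oo k * g) ?_ ?_
    · rw [map_mul, oo_sign, h1]; rfl
    · rw [mul_assoc, hg', ← mul_assoc, oo_comm, mul_assoc]

/-- the type of an even permutation -/
noncomputable def T (Φ : alternatingGroup (Fin 12) →* H) (ty : H → Ty) (k : Fin 15) : Ty := ty (Φ ⟨rr k, mem_rr k⟩)

theorem ty_of (hT : Table H ty) {x : P12} (hx : sign x = 1) (k : Fin 15) (h : x.cycleType = (rr k).cycleType) :
    ty (Φ ⟨x, mem_alternatingGroup.2 hx⟩) = T Φ ty k := hT.inv _ _ (isConj_rr hx k h)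

theorem order_of (hΦ : Function.Injective Φ) {x : P12} (hx : x ∈ alternatingGroup (Fin 12)) :
    orderOf (Φ ⟨x, hx⟩) = orderOf x := by
  rw [orderOf_injective Φ hΦ]
  exact (Subgroup.orderOf_coe (⟨x, hx⟩ : alternatingGroup (Fin 12))).symm

theorem ne_sing (hT : Table H ty) {g : H} (h : ¬ 5 ∣ orderOf g) : ty g ≠ .sing := fun h1 => h ((hT.sing g).1 h1)

theorem ord_rr (k : Fin 15) : orderOf (rr k) = (rr k).cycleType.lcm := (Equiv.Perm.lcm_cycleType _).symm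

theorem ord1 : orderOf (rr 1) = 3 ∧ orderOf (rr 2) = 3 ∧ orderOf (rr 3) = 3 ∧ orderOf (rr 4) = 3 ∧ orderOf (rr 5) = 9 ∧
    orderOf (rr 9) = 2 ∧ orderOf (rr 10) = 6 ∧ orderOf (rr 11) = 6 ∧ orderOf (rr 12) = 6 := by
  obtain ⟨-, h1, h2, h3, h4, h5, -, -, -, h9, h10, h11, h12, -⟩ := ty_rr
  simp only [ord_rr, h1, h2, h3, h4, h5, h9, h10, h11, h12]
  decide +kernel

/-- `7` divides the order of the centralizer -/
theorem seven_dvd (hΦ : Function.Injective Φ) {x y : P12} (hx : x ∈ alternatingGroup (Fin 12))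
    (hy : y ∈ alternatingGroup (Fin 12)) (hxy : x * y = y * x) (h7 : orderOf y = 7) :
    7 ∣ Nat.card (Subgroup.centralizer ({Φ ⟨x, hx⟩} : Set H)) := by
  have h1 : Φ ⟨y, hy⟩ ∈ Subgroup.centralizer ({Φ ⟨x, hx⟩} : Set H) := by
    rw [Subgroup.mem_centralizer_singleton_iff, ← map_mul, ← map_mul]
    exact congrArg Φ (Subtype.ext hxy.symm)
  have h2 : orderOf (⟨Φ ⟨y, hy⟩, h1⟩ : Subgroup.centralizer ({Φ ⟨x, hx⟩} : Set H)) ∣
      Nat.card (Subgroup.centralizer ({Φ ⟨x, hx⟩} : Set H)) := orderOf_dvd_natCard _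
  rw [← Subgroup.orderOf_coe] at h2
  change orderOf (Φ ⟨y, hy⟩) ∣ _ at h2
  rwa [order_of hΦ, h7] at h2

/-- `(0 1 2 3 4 5 6)` -/
def y7 (a b c d e f g : Fin 12) : P12 := Equiv.swap a b * Equiv.swap b c * Equiv.swap c d * Equiv.swap d e * Equiv.swap e f * Equiv.swap f g

theorem y7_1 : orderOf (y7 3 4 5 6 7 8 9) = 7 := by
  rw [← Equiv.Perm.lcm_cycleType]
  decide +kernel

theorem y7_2 : orderOf (y7 0 1 2 3 4 5 10) = 7 := by
  rw [← Equiv.Perm.lcm_cycleType]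
  decide +kernel

/-- the 3-cycles are in `3A` -/
theorem T1 (hT : Table H ty) (hΦ : Function.Injective Φ) : T Φ ty 1 = .c3A := by
  have h3 := order_of hΦ (mem_rr 1)
  rw [ord1.1] at h3
  have hs : ty (Φ ⟨rr 1, mem_rr 1⟩) ≠ .sing := ne_sing hT (by rw [h3]; norm_num)
  have h7 := seven_dvd hΦ (mem_rr 1) (y := y7 3 4 5 6 7 8 9) (by rw [mem_alternatingGroup]; decide +kernel)
    (by decide +kernel) y7_1
  rw [hT.cent _ hs] at h7
  have ho := hT.ord _ hs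
  rw [h3] at ho
  unfold T
  generalize ty (Φ ⟨rr 1, mem_rr 1⟩) = t at *
  revert t
  decide

/-- `(6 7)(8 9)` -/
def t4 : P12 := Equiv.swap 6 7 * Equiv.swap 8 9

theorem t4_mem : t4 ∈ alternatingGroup (Fin 12) := by rw [mem_alternatingGroup]; decide +kernel

theorem ty_t4 (hT : Table H ty) (hΦ : Function.Injective Φ) : ty (Φ ⟨t4, t4_mem⟩) = .c2A := by
  have h3 := order_of hΦ t4_mem
  have h3' : orderOf t4 = 2 := by
    rw [← Equiv.Perm.lcm_cycleType]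
    decide +kernel
  rw [h3'] at h3
  have hs : ty (Φ ⟨t4, t4_mem⟩) ≠ .sing := ne_sing hT (by rw [h3]; norm_num)
  have h7 := seven_dvd hΦ t4_mem (y := y7 0 1 2 3 4 5 10) (by rw [mem_alternatingGroup]; decide +kernel)
    (by decide +kernel) y7_2
  rw [hT.cent _ hs] at h7
  have ho := hT.ord _ hs
  rw [h3] at ho
  generalize ty (Φ ⟨t4, t4_mem⟩) = t at *
  revert t
  decide

/-- the type of a power -/
theorem ty_pow (hT : Table H ty) {x : P12} (hx : x ∈ alternatingGroup (Fin 12)) (p : ℕ) (hp : p.Prime)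
    (hs : ty (Φ ⟨x, hx⟩) ≠ .sing) :
    ty (Φ ⟨x ^ p, Subgroup.pow_mem _ hx p⟩) = (ty (Φ ⟨x, hx⟩)).pw p := by
  rw [← hT.pow _ p hp hs, ← map_pow]
  rfl

/-- the elements `3²` are in `3A` -/
theorem T2 (hT : Table H ty) (hΦ : Function.Injective Φ) : T Φ ty 2 = .c3A := by
  have hm : rr 2 * t4 ∈ alternatingGroup (Fin 12) := Subgroup.mul_mem _ (mem_rr 2) t4_mem
  have h6 : orderOf (rr 2 * t4) = 6 := by
    rw [← Equiv.Perm.lcm_cycleType]
    decide +kernel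
  have h6' := order_of hΦ hm
  rw [h6] at h6'
  have hs : ty (Φ ⟨rr 2 * t4, hm⟩) ≠ .sing := ne_sing hT (by rw [h6']; norm_num)
  have h3 := ty_pow hT hm 3 (by norm_num) hs
  have e3 : (rr 2 * t4) ^ 3 = t4 := by decide +kernel
  have e4 : (⟨(rr 2 * t4) ^ 3, Subgroup.pow_mem _ hm 3⟩ : alternatingGroup (Fin 12)) = ⟨t4, t4_mem⟩ := Subtype.ext e3
  rw [e4, ty_t4 hT hΦ] at h3
  have h2 := ty_pow hT hm 2 (by norm_num) hs
  have s5 : sign ((rr 2 * t4) ^ 2) = 1 := by decide +kernel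
  have c5 : ((rr 2 * t4) ^ 2).cycleType = (rr 2).cycleType := by decide +kernel
  have h5 : ty (Φ ⟨(rr 2 * t4) ^ 2, Subgroup.pow_mem _ hm 2⟩) = T Φ ty 2 := ty_of hT s5 2 c5
  rw [h5] at h2
  rw [h2]
  have ho := hT.ord _ hs
  rw [h6'] at ho
  clear h2 h5 c5 s5 e4 e3 h6' h6
  generalize ty (Φ ⟨rr 2 * t4, hm⟩) = t at *
  revert t
  decide

theorem T3 (hT : Table H ty) (hΦ : Function.Injective Φ) : T Φ ty 3 = .c3A ∨ T Φ ty 3 = .c3B := by
  have h3 := order_of hΦ (mem_rr 3)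
  rw [ord1.2.2.1] at h3
  have hs : ty (Φ ⟨rr 3, mem_rr 3⟩) ≠ .sing := ne_sing hT (by rw [h3]; norm_num)
  have ho := hT.ord _ hs
  rw [h3] at ho
  unfold T
  generalize ty (Φ ⟨rr 3, mem_rr 3⟩) = t at *
  revert t
  decide

theorem T4 (hT : Table H ty) (hΦ : Function.Injective Φ) : T Φ ty 4 = .c3A ∨ T Φ ty 4 = .c3B := by
  have h3 := order_of hΦ (mem_rr 4)
  rw [ord1.2.2.2.1] at h3
  have hs : ty (Φ ⟨rr 4, mem_rr 4⟩) ≠ .sing := ne_sing hT (by rw [h3]; norm_num)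
  have ho := hT.ord _ hs
  rw [h3] at ho
  unfold T
  generalize ty (Φ ⟨rr 4, mem_rr 4⟩) = t at *
  revert t
  decide

theorem T5 (hT : Table H ty) (hΦ : Function.Injective Φ) : T Φ ty 5 = .c9 := by
  have h3 := order_of hΦ (mem_rr 5)
  rw [ord1.2.2.2.2.1] at h3
  have hs : ty (Φ ⟨rr 5, mem_rr 5⟩) ≠ .sing := ne_sing hT (by rw [h3]; norm_num)
  have ho := hT.ord _ hs
  rw [h3] at ho
  unfold T
  generalize ty (Φ ⟨rr 5, mem_rr 5⟩) = t at *
  revert t
  decide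

/-- an involution of type `2²` is in `2A` -/
theorem T6 (hT : Table H ty) (hΦ : Function.Injective Φ) : T Φ ty 6 = .c2A := by
  rw [← ty_t4 hT hΦ]
  exact (ty_of hT (mem_alternatingGroup.1 t4_mem) 6 (by decide +kernel)).symm

theorem T9 (hT : Table H ty) (hΦ : Function.Injective Φ) : T Φ ty 9 = .c2A ∨ T Φ ty 9 = .c2B := by
  have h3 := order_of hΦ (mem_rr 9)
  rw [ord1.2.2.2.2.2.1] at h3
  have hs : ty (Φ ⟨rr 9, mem_rr 9⟩) ≠ .sing := ne_sing hT (by rw [h3]; norm_num)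
  have ho := hT.ord _ hs
  rw [h3] at ho
  unfold T
  generalize ty (Φ ⟨rr 9, mem_rr 9⟩) = t at *
  revert t
  decide

/-- elements of order 6 -/
theorem T_six (hT : Table H ty) (hΦ : Function.Injective Φ) (k j l : Fin 15) (h6 : orderOf (rr k) = 6)
    (hj : (rr k ^ 3).cycleType = (rr j).cycleType) (hl : (rr k ^ 2).cycleType = (rr l).cycleType)
    (h2 : T Φ ty j = .c2B) :
    (T Φ ty l = .c3A → T Φ ty k = .c6B) ∧ (T Φ ty l = .c3B → T Φ ty k = .c6C) := by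
  have h6' := order_of hΦ (mem_rr k)
  rw [h6] at h6'
  have hs : ty (Φ ⟨rr k, mem_rr k⟩) ≠ .sing := ne_sing hT (by rw [h6']; norm_num)
  have e3 := ty_pow hT (mem_rr k) 3 (by norm_num) hs
  have e2 := ty_pow hT (mem_rr k) 2 (by norm_num) hs
  rw [ty_of hT (by rw [map_pow, rr_sign, one_pow]) j hj, h2] at e3
  rw [ty_of hT (by rw [map_pow, rr_sign, one_pow]) l hl] at e2
  have ho := hT.ord _ hs
  rw [h6'] at ho
  unfold T at *
  rw [e2]
  generalize ty (Φ ⟨rr k, mem_rr k⟩) = t at *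
  clear e2
  revert t
  decide

end

/-! ### `HN` -/

open Cfsg.Agent.CpAutHN.Pairs Cfsg.Agent.CpAutHN.Alt Cfsg.Agent.CpAutHN.Tr Cfsg.Agent.H845.HNTr

theorem tr_rr {x : P12} (hx : x ∈ alternatingGroup (Fin 12)) (k : Fin 15) (h : x.cycleType = (rr k).cycleType) :
    tr (Φ ⟨x, hx⟩) = tr (Φ ⟨rr k, mem_rr k⟩) := tr_conj (isConj_rr (mem_alternatingGroup.1 hx) k h)

theorem tr1 : tr (Φ ⟨rr 1, mem_rr 1⟩) = 7 := by
  rw [← tr_x1]
  exact (tr_rr x1_mem 1 (by decide +kernel)).symm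

theorem tr3 : tr (Φ ⟨rr 3, mem_rr 3⟩) = 29 := by
  rw [← tr_x3]
  exact (tr_rr x3_mem 3 (by decide +kernel)).symm

theorem tr4 : tr (Φ ⟨rr 4, mem_rr 4⟩) = 7 := by
  have hl : ∀ i ∈ l4, i < 10 := by decide
  rw [← tr_l4, ← Φ_wp hl]
  exact (tr_rr (wp_mem hl) 4 (by decide +kernel)).symm

theorem tr6 : tr (Φ ⟨rr 6, mem_rr 6⟩) = 21 := by
  rw [← tr_t2]
  exact (tr_rr t2_mem 6 (by decide +kernel)).symm

theorem tr9 : tr (Φ ⟨rr 9, mem_rr 9⟩) = 5 := by
  rw [← tr_s1]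
  exact (tr_rr s1_mem 9 (by decide +kernel)).symm

variable [Finite Cfsg.Spor.HN] {ty : Cfsg.Spor.HN → Ty}

theorem types (hT : Table Cfsg.Spor.HN ty) : T Φ ty 1 = .c3A ∧ T Φ ty 2 = .c3A ∧ T Φ ty 3 = .c3B ∧ T Φ ty 4 = .c3A ∧
    T Φ ty 5 = .c9 ∧ T Φ ty 9 = .c2B ∧ T Φ ty 10 = .c6B ∧ T Φ ty 11 = .c6B ∧ T Φ ty 12 = .c6C := by
  have h1 := T1 hT Φ_inj
  have h2 := T2 hT Φ_inj
  have h3 : T Φ ty 3 = .c3B := by
    rcases T3 hT Φ_inj with h | h
    · have h4 : IsConj (Φ ⟨rr 3, mem_rr 3⟩) (Φ ⟨rr 1, mem_rr 1⟩) :=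
        hT.conj _ _ (h.trans h1.symm) (by rw [show ty _ = _ from h]; decide) (by rw [show ty _ = _ from h]; decide)
      have h5 := tr_conj h4
      rw [tr3, tr1] at h5
      exact absurd h5 (by decide)
    · exact h
  have h4 : T Φ ty 4 = .c3A := by
    rcases T4 hT Φ_inj with h | h
    · exact h
    · have h4 : IsConj (Φ ⟨rr 4, mem_rr 4⟩) (Φ ⟨rr 3, mem_rr 3⟩) :=
        hT.conj _ _ (h.trans h3.symm) (by rw [show ty _ = _ from h]; decide) (by rw [show ty _ = _ from h]; decide)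
      have h5 := tr_conj h4
      rw [tr4, tr3] at h5
      exact absurd h5 (by decide)
  have h6 := T6 hT Φ_inj
  have h9 : T Φ ty 9 = .c2B := by
    rcases T9 hT Φ_inj with h | h
    · have h4 : IsConj (Φ ⟨rr 9, mem_rr 9⟩) (Φ ⟨rr 6, mem_rr 6⟩) :=
        hT.conj _ _ (h.trans h6.symm) (by rw [show ty _ = _ from h]; decide) (by rw [show ty _ = _ from h]; decide)
      have h5 := tr_conj h4
      rw [tr9, tr6] at h5
      exact absurd h5 (by decide)
    · exact h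
  obtain ⟨-, -, -, -, -, -, o10, o11, o12⟩ := ord1
  exact ⟨h1, h2, h3, h4, T5 hT Φ_inj, h9,
    (T_six hT Φ_inj 10 9 1 o10 (by decide +kernel) (by decide +kernel) h9).1 h1,
    (T_six hT Φ_inj 11 9 2 o11 (by decide +kernel) (by decide +kernel) h9).1 h2,
    (T_six hT Φ_inj 12 9 3 o12 (by decide +kernel) (by decide +kernel) h9).2 h3⟩

theorem B_ty (hT : Table Cfsg.Spor.HN ty) {b : Cfsg.Spor.HN → ℤ} (hb : Bt b) {k : Fin 15} {g : Cfsg.Spor.HN}
    (h : T Φ ty k = ty g) (h1 : ty g ≠ .sing) (h2 : ty g ≠ .c19) : B Φ b (rr k) = b g := by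
  rw [B_eq Φ b (mem_rr k)]
  exact hb.conj _ _ (hT.conj _ _ h (by rw [show ty _ = _ from h]; exact h1) (by rw [show ty _ = _ from h]; exact h2))

theorem B_one {b : Cfsg.Spor.HN → ℤ} (hb : Bt b) : B Φ b (rr 0) = 133 := by
  rw [B_eq Φ b (mem_rr 0), ← hb.one]
  congr 1
  exact map_one Φ

/-- **The relations.** -/
theorem sums (hT : Table Cfsg.Spor.HN ty) {b : Cfsg.Spor.HN → ℤ} (hb : Bt b) : H616.M23.Sums ty b := by
  obtain ⟨h1, h2, h3, h4, h5, h9, h10, h11, h12⟩ := types hT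
  have k1 := B_one hb
  refine ⟨fun x y hx hy => ?_, fun x y z hx hy hz => ?_, fun s x y hs hx hy => ?_⟩
  · have h := S1 (Φ := Φ) (sm hb)
    rw [k1, B_ty hT hb (h1.trans hx.symm) (by rw [hx]; decide) (by rw [hx]; decide),
      B_ty hT hb (h2.trans hx.symm) (by rw [hx]; decide) (by rw [hx]; decide),
      B_ty hT hb (h3.trans hy.symm) (by rw [hy]; decide) (by rw [hy]; decide),
      B_ty hT hb (h4.trans hx.symm) (by rw [hx]; decide) (by rw [hx]; decide)] at h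
    omega
  · have h := S2 (Φ := Φ) (sm hb)
    rw [k1, B_ty hT hb (h1.trans hx.symm) (by rw [hx]; decide) (by rw [hx]; decide),
      B_ty hT hb (h2.trans hx.symm) (by rw [hx]; decide) (by rw [hx]; decide),
      B_ty hT hb (h3.trans hy.symm) (by rw [hy]; decide) (by rw [hy]; decide),
      B_ty hT hb (h5.trans hz.symm) (by rw [hz]; decide) (by rw [hz]; decide)] at h
    omega
  · have h := S4 (Φ := Φ) (sm hb)
    rw [B_ty hT hb (h9.trans hs.symm) (by rw [hs]; decide) (by rw [hs]; decide),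
      B_ty hT hb (h10.trans hx.symm) (by rw [hx]; decide) (by rw [hx]; decide),
      B_ty hT hb (h11.trans hx.symm) (by rw [hx]; decide) (by rw [hx]; decide),
      B_ty hT hb (h12.trans hy.symm) (by rw [hy]; decide) (by rw [hy]; decide)] at h
    omega

end Cfsg.Agent.H717.M23.SumsHN
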