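import Mathlib

/-!
# Divisibility relations for class functions on groups containing `A₁₂` (helper717)

`b : H → ℤ` a class function such that `|K|` divides `∑ b (s k)` for every finite group `K → H` and every `s` commuting
with it (`Sm b`), `Φ : A₁₂ → H`. `B x = b (Φ x)` (`x` an even permutation).  The relations `S0` to `S7` between the values
of `b` at the elements of the cycle types
`3, 3², 3³, 3⁴, 9, 2², 2²·3, 2²·3², 2⁴, 2⁴·3, 6·2, 6·2·3, 4·2·3, 4²·3`.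
-/

set_option autoImplicit false

namespace Cfsg.Agent.H717.M23.Sums

open scoped BigOperators
open Equiv.Perm (mem_alternatingGroup sign)

/-- the permutations of twelve points -/
abbrev P12 := Equiv.Perm (Fin 12)

/-- the hypothesis on the function `b` -/
structure Sm {H : Type} [Group H] (b : H → ℤ) : Prop where
  conj : ∀ g h : H, IsConj g h → b g = b h
  sum : ∀ {K : Type} [Group K] [Fintype K] (f : K →* H) (s : H), (∀ k, Commute s (f k)) →
    (Nat.card K : ℤ) ∣ ∑ k, b (s * f k)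

section

variable {H : Type} [Group H] (Φ : alternatingGroup (Fin 12) →* H) (b : H → ℤ)

/-- the value of `b` at an even permutation -/
noncomputable def B (x : P12) : ℤ := by
  classical exact if h : x ∈ alternatingGroup (Fin 12) then b (Φ ⟨x, h⟩) else 0

theorem B_eq {x : P12} (h : x ∈ alternatingGroup (Fin 12)) : B Φ b x = b (Φ ⟨x, h⟩) := by
  unfold B
  rw [dif_pos h]

variable {Φ b}

/-- The value depends only on the cycle type if an odd permutation commutes with the representative. -/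
theorem B_type (hb : Sm b) {x r o : P12} (hx : sign x = 1) (hr : sign r = 1) (hT : x.cycleType = r.cycleType)
    (ho : sign o = -1) (hoc : o * r = r * o) : B Φ b x = B Φ b r := by
  rw [B_eq Φ b (mem_alternatingGroup.2 hx), B_eq Φ b (mem_alternatingGroup.2 hr)]
  apply hb.conj
  obtain ⟨g, hg⟩ := isConj_iff.1 (Equiv.Perm.isConj_iff_cycleType_eq.2 hT)
  have hg' : g * x = r * g := by rw [← hg]; group
  have key : ∀ c : P12, sign c = 1 → c * x = r * c →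
      IsConj (Φ ⟨x, mem_alternatingGroup.2 hx⟩) (Φ ⟨r, mem_alternatingGroup.2 hr⟩) := by
    intro c hc h
    refine isConj_iff.2 ⟨Φ ⟨c, mem_alternatingGroup.2 hc⟩, ?_⟩
    rw [mul_inv_eq_iff_eq_mul, ← map_mul, ← map_mul]
    exact congrArg Φ (Subtype.ext h)
  rcases Int.units_eq_one_or (sign g) with h1 | h1
  · exact key g h1 hg'
  · refine key (o * g) ?_ ?_
    · rw [map_mul, ho, h1]; rfl
    · rw [mul_assoc, hg', ← mul_assoc, hoc, mul_assoc]

/-- The sum over an explicit family closed under multiplication. -/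
theorem sum_family (hb : Sm b) {ι : Type} [Fintype ι] [Nonempty ι] (e : ι → P12) (he : Function.Injective e)
    (hs : ∀ i, sign (e i) = 1) (hmul : ∀ i j, ∃ k, e i * e j = e k) (s : P12) (hs' : sign s = 1)
    (hc : ∀ i, s * e i = e i * s) : (Fintype.card ι : ℤ) ∣ ∑ i, B Φ b (s * e i) := by
  classical
  let a : ι → alternatingGroup (Fin 12) := fun i => ⟨e i, mem_alternatingGroup.2 (hs i)⟩
  let S : Submonoid (alternatingGroup (Fin 12)) :=
    { carrier := Set.range a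
      mul_mem' := by
        rintro _ _ ⟨i, rfl⟩ ⟨j, rfl⟩
        obtain ⟨k, hk⟩ := hmul i j
        exact ⟨k, Subtype.ext hk.symm⟩
      one_mem' := by
        obtain ⟨i⟩ := (inferInstance : Nonempty ι)
        have h1 : ∀ n : ℕ, a i ^ (n + 1) ∈ Set.range a := by
          intro n
          induction n with
          | zero => exact ⟨i, by rw [zero_add, pow_one]⟩
          | succ n ih =>
            obtain ⟨j, hj⟩ := ih
            obtain ⟨k, hk⟩ := hmul j i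
            exact ⟨k, by rw [pow_succ, ← hj]; exact Subtype.ext hk.symm⟩
        have h2 := h1 (orderOf (a i) - 1)
        rw [Nat.sub_add_cancel (orderOf_pos _), pow_orderOf_eq_one] at h2
        exact h2 }
  let T : Subgroup (alternatingGroup (Fin 12)) := { S with
    inv_mem' := by
      intro x hx
      have h1 : x⁻¹ = x ^ (orderOf x - 1) := by
        rw [inv_eq_iff_mul_eq_one, ← pow_succ', Nat.sub_add_cancel (orderOf_pos _), pow_orderOf_eq_one]
      show x⁻¹ ∈ S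
      rw [h1]
      exact pow_mem hx _ }
  have hT : ∀ x, x ∈ T ↔ ∃ i, a i = x := fun x => Iff.rfl
  let E : ι ≃ T := Equiv.ofBijective (fun i => ⟨a i, (hT _).2 ⟨i, rfl⟩⟩)
    ⟨fun i j h => he (congrArg (fun t : T => ((t : alternatingGroup (Fin 12)) : P12)) h), fun x => by
      obtain ⟨i, hi⟩ := (hT _).1 x.2
      exact ⟨i, Subtype.ext hi⟩⟩
  have : Fintype T := Fintype.ofEquiv ι E
  have h := hb.sum (Φ.comp T.subtype) (Φ ⟨s, mem_alternatingGroup.2 hs'⟩) (fun k => by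
    obtain ⟨i, hi⟩ := (hT _).1 k.2
    show Φ ⟨s, _⟩ * Φ (k : alternatingGroup (Fin 12)) = Φ (k : alternatingGroup (Fin 12)) * Φ ⟨s, _⟩
    rw [← map_mul, ← map_mul, ← hi]
    exact congrArg Φ (Subtype.ext (hc i)))
  rw [← Nat.card_congr E, Nat.card_eq_fintype_card, ← Equiv.sum_comp E] at h
  have h2 : ∀ i, b (Φ ⟨s, mem_alternatingGroup.2 hs'⟩ * (Φ.comp T.subtype) (E i)) = B Φ b (s * e i) := by
    intro i
    rw [B_eq Φ b (mem_alternatingGroup.2 (by rw [map_mul, hs', hs, mul_one]) : s * e i ∈ alternatingGroup (Fin 12))]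
    show b (Φ ⟨s, _⟩ * Φ (a i)) = _
    rw [← map_mul]
    rfl
  rw [Finset.sum_congr rfl fun i _ => h2 i] at h
  exact h

/-- sorting a sum by the values of a function -/
theorem sum_sort {ι : Type} [Fintype ι] {n : ℕ} (w : ι → Fin n) (F : Fin n → ℤ) :
    ∑ i, F (w i) = ∑ k, ((Finset.univ.filter fun i => w i = k).card : ℤ) * F k := by
  have h : ∀ i, F (w i) = ∑ k, if w i = k then F k else 0 := fun i => by
    rw [Finset.sum_ite_eq, if_pos (Finset.mem_univ _)]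
  rw [Finset.sum_congr rfl fun i _ => h i, Finset.sum_comm]
  refine Finset.sum_congr rfl fun k _ => ?_
  rw [← Finset.sum_filter, Finset.sum_const, nsmul_eq_mul]

end

/-! ### The permutations -/

/-- `(0 1 2)` -/
def c0 : P12 := ⟨![1,2,0,3,4,5,6,7,8,9,10,11], ![2,0,1,3,4,5,6,7,8,9,10,11], by decide, by decide⟩
/-- `(3 4 5)` -/
def c1 : P12 := ⟨![0,1,2,4,5,3,6,7,8,9,10,11], ![0,1,2,5,3,4,6,7,8,9,10,11], by decide, by decide⟩
/-- `(6 7 8)` -/
def c2 : P12 := ⟨![0,1,2,3,4,5,7,8,6,9,10,11], ![0,1,2,3,4,5,8,6,7,9,10,11], by decide, by decide⟩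
/-- `(9 10 11)` -/
def c3 : P12 := ⟨![0,1,2,3,4,5,6,7,8,10,11,9], ![0,1,2,3,4,5,6,7,8,11,9,10], by decide, by decide⟩
/-- `(0 3 6)(1 4 7)(2 5 8)` -/
def cb : P12 := ⟨![3,4,5,6,7,8,0,1,2,9,10,11], ![6,7,8,0,1,2,3,4,5,9,10,11], by decide, by decide⟩
/-- `(0 3)(1 4)(2 5)` -/
def s01 : P12 := ⟨![3,4,5,0,1,2,6,7,8,9,10,11], ![3,4,5,0,1,2,6,7,8,9,10,11], by decide, by decide⟩

/-- the representatives of the cycle types:
`0: 1, 1: 3, 2: 3², 3: 3³, 4: 3⁴, 5: 9, 6: 2², 7: 2²·3, 8: 2²·3², 9: 2⁴, 10: 2⁴·3, 11: 6·2, 12: 6·2·3, 13: 4·2·3,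
14: 4²·3` -/
def rr : Fin 15 → P12
  | 0 => 1
  | 1 => c0
  | 2 => c0 * c1
  | 3 => c0 * c1 * c2
  | 4 => c0 * c1 * c2 * c3
  | 5 => c0 * cb
  | 6 => Equiv.swap 0 1 * Equiv.swap 2 3
  | 7 => Equiv.swap 0 1 * Equiv.swap 2 3 * c3
  | 8 => Equiv.swap 0 1 * Equiv.swap 9 10 * c1 * c2
  | 9 => Equiv.swap 0 1 * Equiv.swap 2 3 * Equiv.swap 4 5 * Equiv.swap 6 7
  | 10 => Equiv.swap 0 1 * Equiv.swap 2 3 * Equiv.swap 4 5 * Equiv.swap 6 7 * c3
  | 11 => c0 * c1 * s01 * Equiv.swap 6 7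
  | 12 => c0 * c1 * s01 * Equiv.swap 6 7 * c3
  | 13 => Equiv.swap 0 1 * Equiv.swap 1 2 * Equiv.swap 2 3 * Equiv.swap 4 5 * c3
  | 14 => Equiv.swap 0 1 * Equiv.swap 1 2 * Equiv.swap 2 3 * (Equiv.swap 4 5 * Equiv.swap 5 6 * Equiv.swap 6 7) * c3

theorem ty_rr : (rr 0).cycleType = 0 ∧ (rr 1).cycleType = {3} ∧ (rr 2).cycleType = {3, 3} ∧
    (rr 3).cycleType = {3, 3, 3} ∧ (rr 4).cycleType = {3, 3, 3, 3} ∧ (rr 5).cycleType = {9} ∧
    (rr 6).cycleType = {2, 2} ∧ (rr 7).cycleType = {2, 2, 3} ∧ (rr 8).cycleType = {2, 2, 3, 3} ∧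
    (rr 9).cycleType = {2, 2, 2, 2} ∧ (rr 10).cycleType = {2, 2, 2, 2, 3} ∧ (rr 11).cycleType = {6, 2} ∧
    (rr 12).cycleType = {6, 2, 3} ∧ (rr 13).cycleType = {4, 2, 3} ∧ (rr 14).cycleType = {4, 4, 3} := by
  decide +kernel

/-- odd permutations commuting with the representatives -/
def oo : Fin 15 → P12
  | 0 => Equiv.swap 10 11
  | 1 => Equiv.swap 10 11
  | 2 => Equiv.swap 10 11
  | 3 => Equiv.swap 10 11
  | 4 => s01
  | 5 => Equiv.swap 10 11
  | 6 => Equiv.swap 0 1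
  | 7 => Equiv.swap 0 1
  | 8 => Equiv.swap 0 1
  | 9 => Equiv.swap 0 1
  | 10 => Equiv.swap 0 1
  | 11 => Equiv.swap 6 7
  | 12 => Equiv.swap 6 7
  | 13 => Equiv.swap 4 5
  | 14 => Equiv.swap 0 1 * Equiv.swap 1 2 * Equiv.swap 2 3

theorem oo_comm : ∀ k : Fin 15, oo k * rr k = rr k * oo k := by decide +kernel

theorem oo_sign : ∀ k : Fin 15, sign (oo k) = -1 := by decide +kernel

theorem rr_sign : ∀ k : Fin 15, sign (rr k) = 1 := by decide +kernel

section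

variable {H : Type} [Group H] {Φ : alternatingGroup (Fin 12) →* H} {b : H → ℤ}

theorem B_rr (hb : Sm b) {x : P12} (k : Fin 15) (hx : sign x = 1) (hT : x.cycleType = (rr k).cycleType) :
    B Φ b x = B Φ b (rr k) := B_type hb hx (rr_sign k) hT (oo_sign k) (oo_comm k)

/-- the general form of the relations -/
theorem rel (hb : Sm b) {ι : Type} [Fintype ι] [Nonempty ι] (e : ι → P12) (he : Function.Injective e)
    (hmul : ∀ i j, ∃ k, e i * e j = e k) (s : P12) (w : ι → Fin 15) (hs : ∀ i, sign (e i) = 1) (hs' : sign s = 1)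
    (hc : ∀ i, s * e i = e i * s) (hw : ∀ i, (s * e i).cycleType = (rr (w i)).cycleType) (m : Fin 15 → ℕ)
    (hm : ∀ k : Fin 15, (Finset.univ.filter fun i => w i = k).card = m k) :
    (Fintype.card ι : ℤ) ∣ ∑ k, (m k : ℤ) * B Φ b (rr k) := by
  have h := sum_family (Φ := Φ) hb e he hs hmul s hs' hc
  rw [Finset.sum_congr rfl fun i _ => B_rr hb (w i) (by rw [map_mul, hs', hs, mul_one]) (hw i)] at h
  rw [sum_sort w (fun k => B Φ b (rr k))] at h
  rwa [Finset.sum_congr rfl fun k _ => by rw [hm k]] at h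

end

theorem sum15 (f : Fin 15 → ℤ) : ∑ k, f k = f 0 + (f 1 + (f 2 + (f 3 + (f 4 + (f 5 + (f 6 + (f 7 + (f 8 + (f 9 +
    (f 10 + (f 11 + (f 12 + (f 13 + f 14))))))))))))) := by
  simp only [Fin.sum_univ_succ, Fin.sum_univ_zero, add_zero]
  rfl

section

variable {H : Type} [Group H] {Φ : alternatingGroup (Fin 12) →* H} {b : H → ℤ}

/-! ### S0 -/

/-- the family -/
def e0 (i : Fin 3 × Fin 3) : P12 := c0 ^ (i.1 : ℕ) * c1 ^ (i.2 : ℕ)

/-- the types -/
def w0 (i : Fin 3 × Fin 3) : Fin 15 := (if i.1 = 0 then 0 else 1) + (if i.2 = 0 then 0 else 1)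

theorem S0 (hb : Sm b) : (9 : ℤ) ∣ B Φ b (rr 0) + 4 * B Φ b (rr 1) + 4 * B Φ b (rr 2) := by
  have h := rel (Φ := Φ) hb e0 (by decide +kernel) (by decide +kernel) 1 w0 (by decide +kernel) (by decide +kernel)
    (by decide +kernel) (by decide +kernel) ![1, 4, 4, 0, 0, 0, 0, 0, 0, 0, 0, 0, 0, 0, 0] (by decide +kernel)
  rw [sum15] at h
  simp only [Matrix.cons_val] at h
  have hc : Fintype.card (Fin 3 × Fin 3) = 9 := by decide
  rw [hc] at h
  push_cast at h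
  ring_nf at h ⊢
  exact h

/-! ### S3 -/

/-- the family -/
def e3 (i : Fin 3 × Fin 3) : P12 := c1 ^ (i.1 : ℕ) * c2 ^ (i.2 : ℕ)

/-- the types -/
def w3 (i : Fin 3 × Fin 3) : Fin 15 := 6 + (if i.1 = 0 then 0 else 1) + (if i.2 = 0 then 0 else 1)

theorem S3 (hb : Sm b) : (9 : ℤ) ∣ B Φ b (rr 6) + 4 * B Φ b (rr 7) + 4 * B Φ b (rr 8) := by
  have h := rel (Φ := Φ) hb e3 (by decide +kernel) (by decide +kernel) (Equiv.swap 0 1 * Equiv.swap 9 10) w3
    (by decide +kernel) (by decide +kernel)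
    (by decide +kernel) (by decide +kernel) ![0, 0, 0, 0, 0, 0, 1, 4, 4, 0, 0, 0, 0, 0, 0] (by decide +kernel)
  rw [sum15] at h
  simp only [Matrix.cons_val] at h
  have hc : Fintype.card (Fin 3 × Fin 3) = 9 := by decide
  rw [hc] at h
  push_cast at h
  ring_nf at h ⊢
  exact h

/-! ### S4 -/

/-- the family -/
def e4 (i : Fin 3 × Fin 3) : P12 := (Equiv.swap 0 2 * Equiv.swap 2 4 * (Equiv.swap 1 3 * Equiv.swap 3 5)) ^ (i.1 : ℕ) *
  c3 ^ (i.2 : ℕ)

/-- the types -/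
def w4 (i : Fin 3 × Fin 3) : Fin 15 := 9 + (if i.1 = 0 then 0 else 2) + (if i.2 = 0 then 0 else 1)

theorem S4 (hb : Sm b) :
    (9 : ℤ) ∣ B Φ b (rr 9) + 2 * B Φ b (rr 10) + 2 * B Φ b (rr 11) + 4 * B Φ b (rr 12) := by
  have h := rel (Φ := Φ) hb e4 (by decide +kernel) (by decide +kernel)
    (Equiv.swap 0 1 * Equiv.swap 2 3 * Equiv.swap 4 5 * Equiv.swap 6 7) w4 (by decide +kernel) (by decide +kernel)
    (by decide +kernel) (by decide +kernel) ![0, 0, 0, 0, 0, 0, 0, 0, 0, 1, 2, 2, 4, 0, 0] (by decide +kernel)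
  rw [sum15] at h
  simp only [Matrix.cons_val] at h
  have hc : Fintype.card (Fin 3 × Fin 3) = 9 := by decide
  rw [hc] at h
  push_cast at h
  ring_nf at h ⊢
  exact h

/-! ### S5 -/

/-- the family -/
def e5 (i : Fin 2 × Fin 2 × Fin 2) : P12 :=
  (Equiv.swap 0 1 * Equiv.swap 2 3 * Equiv.swap 4 5 * Equiv.swap 6 7) ^ (i.1 : ℕ) *
    (Equiv.swap 0 2 * Equiv.swap 1 3 * Equiv.swap 4 6 * Equiv.swap 5 7) ^ (i.2.1 : ℕ) *
    (Equiv.swap 0 4 * Equiv.swap 1 5 * Equiv.swap 2 6 * Equiv.swap 3 7) ^ (i.2.2 : ℕ)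

/-- the types -/
def w5 (i : Fin 2 × Fin 2 × Fin 2) : Fin 15 := if i = 0 then 1 else 10

theorem S5 (hb : Sm b) : (8 : ℤ) ∣ B Φ b (rr 1) + 7 * B Φ b (rr 10) := by
  have h := rel (Φ := Φ) hb e5 (by decide +kernel) (by decide +kernel) c3 w5 (by decide +kernel) (by decide +kernel)
    (by decide +kernel) (by decide +kernel) ![0, 1, 0, 0, 0, 0, 0, 0, 0, 0, 7, 0, 0, 0, 0] (by decide +kernel)
  rw [sum15] at h
  simp only [Matrix.cons_val] at h
  have hc : Fintype.card (Fin 2 × Fin 2 × Fin 2) = 8 := by decide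
  rw [hc] at h
  push_cast at h
  ring_nf at h ⊢
  exact h

/-! ### S6 -/

/-- the family (a dihedral group) -/
def e6 (i : Fin 4 × Fin 2) : P12 :=
  (Equiv.swap 0 1 * Equiv.swap 1 2 * Equiv.swap 2 3 * Equiv.swap 4 5) ^ (i.1 : ℕ) *
    (Equiv.swap 0 2 * Equiv.swap 4 5) ^ (i.2 : ℕ)

/-- the types -/
def w6 (i : Fin 4 × Fin 2) : Fin 15 := if i = 0 then 1 else if i.2 = 0 ∧ (i.1 = 1 ∨ i.1 = 3) then 13 else 7

theorem S6 (hb : Sm b) : (8 : ℤ) ∣ B Φ b (rr 1) + 5 * B Φ b (rr 7) + 2 * B Φ b (rr 13) := by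
  have h := rel (Φ := Φ) hb e6 (by decide +kernel) (by decide +kernel) c3 w6 (by decide +kernel) (by decide +kernel)
    (by decide +kernel) (by decide +kernel) ![0, 1, 0, 0, 0, 0, 0, 5, 0, 0, 0, 0, 0, 2, 0] (by decide +kernel)
  rw [sum15] at h
  simp only [Matrix.cons_val] at h
  have hc : Fintype.card (Fin 4 × Fin 2) = 8 := by decide
  rw [hc] at h
  push_cast at h
  ring_nf at h ⊢
  exact h

/-! ### S7 -/

/-- the family (a quaternion group) -/
def e7 (i : Fin 4 × Fin 2) : P12 :=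
  (Equiv.swap 0 1 * Equiv.swap 1 2 * Equiv.swap 2 3 * (Equiv.swap 4 5 * Equiv.swap 5 6 * Equiv.swap 6 7)) ^ (i.1 : ℕ) *
    (Equiv.swap 0 4 * Equiv.swap 4 2 * Equiv.swap 2 6 * (Equiv.swap 1 7 * Equiv.swap 7 3 * Equiv.swap 3 5)) ^ (i.2 : ℕ)

/-- the types -/
def w7 (i : Fin 4 × Fin 2) : Fin 15 := if i = 0 then 1 else if i = (2, 0) then 10 else 14

theorem S7 (hb : Sm b) : (8 : ℤ) ∣ B Φ b (rr 1) + B Φ b (rr 10) + 6 * B Φ b (rr 14) := by
  have h := rel (Φ := Φ) hb e7 (by decide +kernel) (by decide +kernel) c3 w7 (by decide +kernel) (by decide +kernel)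
    (by decide +kernel) (by decide +kernel) ![0, 1, 0, 0, 0, 0, 0, 0, 0, 0, 1, 0, 0, 0, 6] (by decide +kernel)
  rw [sum15] at h
  simp only [Matrix.cons_val] at h
  have hc : Fintype.card (Fin 4 × Fin 2) = 8 := by decide
  rw [hc] at h
  push_cast at h
  ring_nf at h ⊢
  exact h

/-! ### S1 and S2 -/

/-- closure under multiplication from generators -/
theorem mul_of_gens {ι : Type} (e : ι → P12) (S : Set P12) (h1 : ∀ g ∈ S, ∀ i, ∃ k, e i * g = e k)
    (h2 : ∀ j, e j ∈ Submonoid.closure S) (i j : ι) : ∃ k, e i * e j = e k := by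
  have h : ∀ x ∈ Submonoid.closure S, ∀ i, ∃ k, e i * x = e k := by
    intro x hx
    induction hx using Submonoid.closure_induction with
    | mem x hx => exact h1 x hx
    | one => exact fun i => ⟨i, mul_one _⟩
    | mul x y _ _ hx hy =>
      intro i
      obtain ⟨k, hk⟩ := hx i
      obtain ⟨l, hl⟩ := hy k
      exact ⟨l, by rw [← mul_assoc, hk, hl]⟩
  exact h _ (h2 j) i

/-- indices -/
abbrev I4 := Fin 3 × Fin 3 × Fin 3 × Fin 3

/-- `c0^i c1^j c2^k c3^l` -/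
def e1 (i : I4) : P12 := c0 ^ (i.1 : ℕ) * c1 ^ (i.2.1 : ℕ) * c2 ^ (i.2.2.1 : ℕ) * c3 ^ (i.2.2.2 : ℕ)

/-- `c0^i c1^j c2^k b^l` -/
def e2 (i : I4) : P12 := c0 ^ (i.1 : ℕ) * c1 ^ (i.2.1 : ℕ) * c2 ^ (i.2.2.1 : ℕ) * cb ^ (i.2.2.2 : ℕ)

/-- the types -/
def w1 (i : I4) : Fin 15 :=
  (if i.1 = 0 then 0 else 1) + (if i.2.1 = 0 then 0 else 1) + (if i.2.2.1 = 0 then 0 else 1) +
    (if i.2.2.2 = 0 then 0 else 1)

/-- the types -/
def w2 (i : I4) : Fin 15 :=
  if i.2.2.2 = 0 then w1 i else if i.1 + i.2.1 + i.2.2.1 = 0 then 3 else 5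

theorem e1_mul : ∀ i : I4, e1 i * c0 = e1 (i.1 + 1, i.2.1, i.2.2.1, i.2.2.2) ∧
    e1 i * c1 = e1 (i.1, i.2.1 + 1, i.2.2.1, i.2.2.2) ∧ e1 i * c2 = e1 (i.1, i.2.1, i.2.2.1 + 1, i.2.2.2) ∧
    e1 i * c3 = e1 (i.1, i.2.1, i.2.2.1, i.2.2.2 + 1) := by decide +kernel

/-- raise one entry -/
def up (i : I4) (t : Fin 3) : I4 :=
  match t with
  | 0 => (i.1 + 1, i.2.1, i.2.2.1, i.2.2.2)
  | 1 => (i.1, i.2.1 + 1, i.2.2.1, i.2.2.2)
  | 2 => (i.1, i.2.1, i.2.2.1 + 1, i.2.2.2)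

theorem e2_mul : ∀ i : I4, e2 i * c0 = e2 (up i i.2.2.2) ∧ e2 i * c1 = e2 (up i (1 + i.2.2.2)) ∧
    e2 i * c2 = e2 (up i (2 + i.2.2.2)) ∧ e2 i * cb = e2 (i.1, i.2.1, i.2.2.1, i.2.2.2 + 1) := by decide +kernel

theorem e1_inj_aux : ∀ i : I4, ((e1 i 0 : Fin 12) : ℕ) = i.1 ∧ ((e1 i 3 : Fin 12) : ℕ) = 3 + i.2.1 ∧
    ((e1 i 6 : Fin 12) : ℕ) = 6 + i.2.2.1 ∧ ((e1 i 9 : Fin 12) : ℕ) = 9 + i.2.2.2 := by decide +kernel

theorem e1_inj : Function.Injective e1 := by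
  intro i j h
  obtain ⟨a1, a2, a3, a4⟩ := e1_inj_aux i
  obtain ⟨b1, b2, b3, b4⟩ := e1_inj_aux j
  rw [h] at a1 a2 a3 a4
  refine Prod.ext (Fin.ext (by omega)) (Prod.ext (Fin.ext (by omega)) (Prod.ext (Fin.ext (by omega)) (Fin.ext (by omega))))

/-- the decoding -/
def dec (σ : P12) : Fin 12 × Fin 12 × Fin 12 := (σ 0, σ 3, σ 6)

/-- the index from the code -/
def ind (d : Fin 12 × Fin 12 × Fin 12) : ℕ × ℕ × ℕ × ℕ :=
  let l := (d.1 : ℕ) / 3
  let a := (d.1 : ℕ) % 3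
  let b := (d.2.1 : ℕ) % 3
  let c := (d.2.2 : ℕ) % 3
  if l = 0 then (a, b, c, l) else if l = 1 then (c, a, b, l) else (b, c, a, l)

theorem e2_inj_aux : ∀ i : I4, ind (dec (e2 i)) = ((i.1 : ℕ), (i.2.1 : ℕ), (i.2.2.1 : ℕ), (i.2.2.2 : ℕ)) := by
  decide +kernel

theorem e2_inj : Function.Injective e2 := by
  intro i j h
  have h1 := e2_inj_aux i
  rw [h, e2_inj_aux j] at h1
  simp only [Prod.mk.injEq] at h1
  obtain ⟨a1, a2, a3, a4⟩ := h1
  exact Prod.ext (Fin.ext a1.symm) (Prod.ext (Fin.ext a2.symm) (Prod.ext (Fin.ext a3.symm) (Fin.ext a4.symm)))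

theorem e1_closed (i j : I4) : ∃ k, e1 i * e1 j = e1 k := by
  refine mul_of_gens e1 {c0, c1, c2, c3} ?_ ?_ i j
  · rintro g (rfl | rfl | rfl | rfl) i
    · exact ⟨_, (e1_mul i).1⟩
    · exact ⟨_, (e1_mul i).2.1⟩
    · exact ⟨_, (e1_mul i).2.2.1⟩
    · exact ⟨_, (e1_mul i).2.2.2⟩
  · intro j
    exact mul_mem (mul_mem (mul_mem (pow_mem (Submonoid.subset_closure (by simp)) _)
      (pow_mem (Submonoid.subset_closure (by simp)) _)) (pow_mem (Submonoid.subset_closure (by simp)) _))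
      (pow_mem (Submonoid.subset_closure (by simp)) _)

theorem e2_closed (i j : I4) : ∃ k, e2 i * e2 j = e2 k := by
  refine mul_of_gens e2 {c0, c1, c2, cb} ?_ ?_ i j
  · rintro g (rfl | rfl | rfl | rfl) i
    · exact ⟨_, (e2_mul i).1⟩
    · exact ⟨_, (e2_mul i).2.1⟩
    · exact ⟨_, (e2_mul i).2.2.1⟩
    · exact ⟨_, (e2_mul i).2.2.2⟩
  · intro j
    exact mul_mem (mul_mem (mul_mem (pow_mem (Submonoid.subset_closure (by simp)) _)
      (pow_mem (Submonoid.subset_closure (by simp)) _)) (pow_mem (Submonoid.subset_closure (by simp)) _))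
      (pow_mem (Submonoid.subset_closure (by simp)) _)

theorem sign_c : sign c0 = 1 ∧ sign c1 = 1 ∧ sign c2 = 1 ∧ sign c3 = 1 ∧ sign cb = 1 := by decide +kernel

theorem sign_e1 (i : I4) : sign (e1 i) = 1 := by
  obtain ⟨h0, h1, h2, h3, -⟩ := sign_c
  simp only [e1, map_mul, map_pow, h0, h1, h2, h3, one_pow, mul_one]

theorem sign_e2 (i : I4) : sign (e2 i) = 1 := by
  obtain ⟨h0, h1, h2, -, h4⟩ := sign_c
  simp only [e2, map_mul, map_pow, h0, h1, h2, h4, one_pow, mul_one]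

theorem ty_e1 : ∀ i : I4, (e1 i).cycleType = (rr (w1 i)).cycleType := by decide +kernel

theorem ty_e2 : ∀ i : I4, (e2 i).cycleType = (rr (w2 i)).cycleType := by decide +kernel

theorem S1 (hb : Sm b) : (81 : ℤ) ∣
    B Φ b (rr 0) + 8 * B Φ b (rr 1) + 24 * B Φ b (rr 2) + 32 * B Φ b (rr 3) + 16 * B Φ b (rr 4) := by
  have h := rel (Φ := Φ) hb e1 e1_inj e1_closed 1 w1 sign_e1 (by decide +kernel)
    (fun i => by rw [one_mul, mul_one]) (fun i => by rw [one_mul]; exact ty_e1 i)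
    ![1, 8, 24, 32, 16, 0, 0, 0, 0, 0, 0, 0, 0, 0, 0] (by decide +kernel)
  rw [sum15] at h
  simp only [Matrix.cons_val] at h
  have hc : Fintype.card I4 = 81 := by decide
  rw [hc] at h
  push_cast at h
  ring_nf at h ⊢
  exact h

theorem S2 (hb : Sm b) : (81 : ℤ) ∣
    B Φ b (rr 0) + 6 * B Φ b (rr 1) + 12 * B Φ b (rr 2) + 26 * B Φ b (rr 3) + 36 * B Φ b (rr 5) := by
  have h := rel (Φ := Φ) hb e2 e2_inj e2_closed 1 w2 sign_e2 (by decide +kernel)
    (fun i => by rw [one_mul, mul_one]) (fun i => by rw [one_mul]; exact ty_e2 i)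
    ![1, 6, 12, 26, 0, 36, 0, 0, 0, 0, 0, 0, 0, 0, 0] (by decide +kernel)
  rw [sum15] at h
  simp only [Matrix.cons_val] at h
  have hc : Fintype.card I4 = 81 := by decide
  rw [hc] at h
  push_cast at h
  ring_nf at h ⊢
  exact h

end

end Cfsg.Agent.H717.M23.Sums
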