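import Cfsg.Agent.H651.HNF.Table

/-!
# The numbers of elements of the classes of `HN` (helper717, for the field `num` of `Table`)

* `card_conj` : `|x^H| |C(x)| = |H|`;
* `num_of` : the field `num` for a type with one class, from `card`, `cent`, `inv`, `conj` and one element;
* `card_order` : `|{g | o(g) = p}| |N(P)| = (p - 1) |H|` if `p ∥ |H|`.
-/

set_option autoImplicit false

namespace Cfsg.Agent.H717.M23.TabNum

open Subgroup Cfsg.Agent.H651.HNF

theorem card_conj {H : Type*} [Group H] (x : H) :
    Nat.card {y : H // IsConj x y} * Nat.card (centralizer ({x} : Set H)) = Nat.card H := by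
  have h1 : {y : H // IsConj x y} = (MulAction.orbit (ConjAct H) x : Set H) := by
    have h2 : {y : H | IsConj x y} = MulAction.orbit (ConjAct H) x := by
      ext y
      rw [Set.mem_ofPred_eq, ConjAct.mem_orbit_conjAct]
      exact isConj_comm
    exact congrArg (fun s : Set H => (s : Type _)) h2
  have h3 := MulAction.index_stabilizer (G := ConjAct H) x
  rw [Subgroup.nat_card_centralizer_nat_card_stabilizer, h1, Nat.card_coe_set_eq, ← h3, mul_comm]
  exact Subgroup.card_mul_index _

/-- the number of elements of a type which is one class -/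
theorem num_of {H : Type*} [Group H] [Finite H] {ty : H → Ty} (hcard : Nat.card H = 273030912000000)
    (hcent : ∀ g, ty g ≠ .sing → Nat.card (centralizer ({g} : Set H)) = (ty g).cen)
    (hinv : ∀ g h, IsConj g h → ty g = ty h)
    (hconj : ∀ g h, ty g = ty h → ty g ≠ .sing → ty g ≠ .c19 → IsConj g h)
    {t : Ty} (ht : t ≠ .sing) (h19 : t ≠ .c19) (hex : ∃ g, ty g = t) : Nat.card {g : H // ty g = t} = t.num := by
  obtain ⟨g, rfl⟩ := hex
  have h1 : Nat.card {x : H // ty x = ty g} = Nat.card {y : H // IsConj g y} :=
    Nat.card_congr (Equiv.subtypeEquivRight fun x => ⟨fun h => hconj g x h.symm ht h19, fun h => (hinv g x h).symm⟩)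
  have h2 := card_conj g
  rw [hcent g ht, hcard, ← h1] at h2
  have h3 := Ty.num_mul (ty g) ht
  rw [if_neg h19, one_mul, ← h2] at h3
  have h4 : (ty g).cen ≠ 0 := by
    intro h0
    rw [h0, mul_zero] at h2
    omega
  exact (Nat.eq_of_mul_eq_mul_right (Nat.pos_of_ne_zero h4) h3).symm

variable {H : Type*} [Group H] [Finite H] {p : ℕ} [hp : Fact p.Prime]

/-- the elements of order `p` and the Sylow `p`-subgroups of order `p` -/
theorem card_order (h1 : p ∣ Nat.card H) (h2 : ¬ p ^ 2 ∣ Nat.card H) {x : H} (hx : orderOf x = p) :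
    Nat.card {g : H // orderOf g = p} * Nat.card (normalizer ((zpowers x : Subgroup H) : Set H)) =
      (p - 1) * Nat.card H := by
  classical
  have hf : (Nat.card H).factorization p = 1 := by
    have h4 : 1 ≤ (Nat.card H).factorization p := (hp.out.dvd_iff_one_le_factorization (Nat.card_pos).ne').1 h1
    have h5 : ¬ 2 ≤ (Nat.card H).factorization p := fun h => h2 ((hp.out.pow_dvd_iff_le_factorization (Nat.card_pos).ne').2 h)
    omega
  have hc : ∀ S : Sylow p H, Nat.card (S : Subgroup H) = p := by
    intro S
    rw [Sylow.card_eq_multiplicity, hf, pow_one]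
  have hS : ∀ g : H, orderOf g = p → Nat.card (zpowers g) = p ^ (Nat.card H).factorization p := by
    intro g hg
    rw [Nat.card_zpowers, hg, hf, pow_one]
  -- the elements of order `p` lie in exactly one Sylow subgroup
  let e : {g : H // orderOf g = p} ≃ Σ S : Sylow p H, {g : (S : Subgroup H) // g ≠ 1} :=
    { toFun := fun g => ⟨Sylow.ofCard (zpowers g.1) (hS g.1 g.2), ⟨⟨g.1, mem_zpowers g.1⟩, fun h => by
        have h3 : g.1 = 1 := congrArg Subtype.val h
        have h4 := g.2
        rw [h3, orderOf_one] at h4
        exact hp.out.one_lt.ne h4⟩⟩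
      invFun := fun s => ⟨(s.2.1 : H), by
        have h3 : orderOf s.2.1 ∣ p := by
          have h4 := orderOf_dvd_natCard s.2.1
          rwa [hc s.1] at h4
        rw [Subgroup.orderOf_coe]
        exact ((Nat.dvd_prime hp.out).1 h3).resolve_left fun h => s.2.2 (orderOf_eq_one_iff.1 h)⟩
      left_inv := fun g => rfl
      right_inv := fun s => by
        obtain ⟨S, ⟨⟨g, hg⟩, hg1⟩⟩ := s
        have h3 : orderOf g = p := by
          have h4 := orderOf_dvd_natCard (⟨g, hg⟩ : (S : Subgroup H))
          rw [hc S, Subgroup.orderOf_mk] at h4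
          refine ((Nat.dvd_prime hp.out).1 h4).resolve_left fun h => hg1 ?_
          exact Subtype.ext (orderOf_eq_one_iff.1 h)
        have h5 : Sylow.ofCard (zpowers g) (hS g h3) = S := by
          apply Sylow.ext
          refine Subgroup.eq_of_le_of_card_ge (zpowers_le.2 hg) ?_
          rw [hc S]
          change p ≤ Nat.card (zpowers g)
          rw [Nat.card_zpowers, h3]
        subst h5
        rfl }
  have hne : ∀ S : Sylow p H, Nat.card {g : (S : Subgroup H) // g ≠ 1} = p - 1 := by
    intro S
    have := Fintype.ofFinite (S : Subgroup H)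
    have h3 := Fintype.card_subtype_compl (fun g : (S : Subgroup H) => g = 1)
    rw [Fintype.card_subtype_eq, ← Nat.card_eq_fintype_card, ← Nat.card_eq_fintype_card, hc S] at h3
    exact h3
  have hcn : Nat.card {g : H // orderOf g = p} = Nat.card (Sylow p H) * (p - 1) := by
    have := Fintype.ofFinite (Sylow p H)
    rw [Nat.card_congr e, Nat.card_sigma, Finset.sum_congr rfl fun S _ => hne S, Finset.sum_const, Finset.card_univ,
      smul_eq_mul, Nat.card_eq_fintype_card]
  have hN : Nat.card (normalizer ((zpowers x : Subgroup H) : Set H)) * Nat.card (Sylow p H) = Nat.card H := by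
    rw [Sylow.card_eq_index_normalizer (Sylow.ofCard (zpowers x) (hS x hx))]
    exact Subgroup.card_mul_index _
  rw [hcn, ← hN]
  ring

end Cfsg.Agent.H717.M23.TabNum
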